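import Cfsg.Agent.BZ.L.Cl.Main
import Cfsg.Agent.Solvable.UniqueOrderP

/-!
# BH, `RowO`: linear and unitary groups, the end game for small defect groups (helper83)

`FA e ρ` : all functions of the weights which commute with `ω ↦ ω ^ e` are realised; `main3` : for `3 ∣ e - 1` a defect group of order
at most `81` is abelian if the members of the block which are trivial on a central `3`-subgroup have height zero.
-/

set_option autoImplicit false
set_option linter.unusedSectionVars false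
set_option maxHeartbeats 400000

namespace Cfsg.Agent.BH.RO.Gl

open Cfsg Subgroup Matrix Cfsg.Agent.BZ.Lab Cfsg.Agent.BZ.Cl Cfsg.Agent.KM

variable {k : Type} [Field k] [IsAlgClosed k] {I : Type} [Fintype I] [DecidableEq I] {K : Type} [Group K] [Fintype K]

/-- the functions of the weights are realised -/
def Fs (e : ℤ) (ρ : K →* GL I k) (h : GL I k) {A : Type} [Group A] (w : I → A →* kˣ) : Prop :=
  ∀ f : (A →* kˣ) → kˣ, (∀ i, f (w i ^ e) = f (w i) ^ e) → ∃ g, mt ρ h g = diagonal fun i => (f (w i) : k)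

/-- **the class** -/
structure FA (Q : ℕ) (e : ℤ) (ρ : K →* GL I k) : Prop where
  fo : Fo 2 Q ρ
  eq : e = Q ∨ e = -(Q : ℤ)
  inj : Function.Injective ρ
  fn : ∀ s : ℕ, s.Prime → ¬ s ∣ Q → s ≠ 2 → ∀ (A : Type) [Group A] [Finite A] (ι : A →* K), IsPGroup s A →
    (∀ a b : A, a * b = b * a) → ∃ (h : GL I k) (w : I → A →* kˣ), Dg ρ ι h w ∧ (∀ i, ∃ j, w j = w i ^ e) ∧ Fs e ρ h w

variable {Q r : ℕ} {e : ℤ} {ρ : K →* GL I k} {h : GL I k} {P : Subgroup K} {w : I → P →* kˣ}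

theorem fn_zpow' {Γ A : Type} [Group Γ] [Group A] {φ : Γ → A} (h1 : ∀ ω, φ (ω ^ Q) = φ ω ^ Q) (h2 : ∀ ω, φ ω⁻¹ = (φ ω)⁻¹)
    (he : e = Q ∨ e = -(Q : ℤ)) (ω : Γ) : φ (ω ^ e) = φ ω ^ e := by
  rcases he with rfl | rfl
  · rw [zpow_natCast, zpow_natCast, h1]
  · rw [_root_.zpow_neg, _root_.zpow_neg, zpow_natCast, zpow_natCast, h2, h1]

theorem zpow_fix {Γ : Type} [Group Γ] {x : Γ} {t : ℕ} (h1 : (t : ℤ) ∣ e - 1) (h2 : x ^ t = 1) : x ^ e = x := by
  obtain ⟨c, hc⟩ := h1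
  rw [show e = t * c + 1 by rw [← hc, sub_add_cancel], _root_.zpow_add_one, _root_.zpow_mul, zpow_natCast, h2, _root_.one_zpow, one_mul]

namespace FA

variable (C : FA Q e ρ)
include C

theorem hq : HQ Q e := ⟨1, by rw [pow_one]; exact C.eq⟩

theorem real {A : Type} [Group A] {w : I → A →* kˣ} (hF : Fs e ρ h w) {f : (A →* kˣ) → kˣ} {t : ℕ}
    (h1 : ∀ i, f (w i ^ e) = f (w i) ^ e) (h2 : ∀ ω, f ω ^ t = 1) : ∃ g, g ^ t = 1 ∧ mt ρ h g = diagonal fun i => (f (w i) : k) := by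
  obtain ⟨g, hg⟩ := hF f h1
  refine ⟨g, C.inj (mt_inj (h := h) ?_), hg⟩
  rw [map_pow, hg, diagonal_pow, map_one, ← diagonal_one]
  exact congrArg diagonal (funext fun i => by rw [Pi.pow_apply, ← Units.val_pow_eq_pow_val, h2, Units.val_one])

variable (R : Pr 2 Q 3 r 1 (Fintype.card I)) (h3 : (3 : ℤ) ∣ e - 1)
include R h3

theorem r_dvd : (r : ℤ) ∣ e - 1 := (tr R.eo R.ppl R.ppr C.hq HQ.one).1 (by simpa using h3)

/-- the weights of an `r`-subgroup are rational -/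
theorem exists_wt (hP : IsPGroup r P) (h0 : P ≤ centralizer (P : Set K)) :
    ∃ h w, Wt 2 Q r ρ P h w ∧ ∀ f : (P →* kˣ) → kˣ, (∀ ω, f ω ^ 3 = 1) →
      ∃ t ∈ Zl 3 P, mt ρ h t = diagonal fun i => (f (w i) : k) := by
  obtain ⟨h, w, k1, k2, k3⟩ := C.fn r R.rp R.rQ R.r2 P P.subtype hP fun x y => Subtype.ext (h0 y.2 x x.2)
  have W : Wt 2 Q r ρ P h w := ⟨hP, h0, k1, fun i => by
    obtain ⟨j, hj⟩ := k2 i
    obtain ⟨j', hj'⟩ := k2 j
    refine ⟨j', MonoidHom.ext fun a => ?_⟩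
    rw [hj', hj, MonoidHom.zpow_apply, MonoidHom.zpow_apply, MonoidHom.pow_apply, ← _root_.zpow_mul, ← zpow_natCast]
    congr 1
    rcases C.eq with e1 | e1 <;> rw [e1] <;> push_cast <;> ring,
    fun t f _ e1 e2 _ => k3 f fun i => fn_zpow' (Γ := P →* kˣ) e1 e2 C.eq _⟩
  refine ⟨h, w, W, fun f hf => ?_⟩
  have h4 : ∀ i, w i ^ e = w i := fun i => by
    by_cases hi : w i = 1
    · exact MonoidHom.ext fun a => by rw [MonoidHom.zpow_apply, hi, MonoidHom.one_apply, _root_.one_zpow]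
    obtain ⟨b, h1, h2⟩ := pp_ord R.rp W.pg hi
    obtain ⟨s, h4, h5, h6⟩ := per (Γ := P →* kˣ) (Q := Q) (w := w) (hom_per R.rp R.rQ W.pg) W.cl i
    have h7 := dvd_of_per h6
    rw [h2] at h7
    exact zpow_fix (Γ := P →* kˣ) ((tr (eo_pow R.rp h1 h4 (h5.trans_lt R.big) h7) R.ppr ⟨r, b, R.rp, R.r2, R.rQ, h1, rfl⟩ C.hq HQ.one).1
      (C.r_dvd R h3)) (h2 ▸ pow_orderOf_eq_one _)
  obtain ⟨t, k4, k5⟩ := C.real k3 (f := f) (fun i => by rw [h4, zpow_fix h3 (hf _)]) hf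
  exact ⟨t, mem_zl (b := 1) h0 (fun g hg => C.fo.comm_fn k1 k5 (by decide) k4 fun y => (hg y y.2).symm) k4, k5⟩

/-- an eigenvalue of order dividing three gives an `r`-element -/
theorem exists_y {x : K} {b : ℕ} (hx : x ^ 3 ^ b = 1) {μ : kˣ} (hμ : μ ^ 3 = 1) : ∃ (y : K) (ξ : k), y ^ r = 1 ∧
    (∀ g, Commute g x → Commute g y) ∧ ∀ v, mt ρ h x *ᵥ v = (μ : k) • v ↔ mt ρ h y *ᵥ v = ξ • v := by
  classical
  obtain ⟨h', w, k1, -, k3⟩ := C.fn 3 R.lp R.lQ R.l2 _ (zpowers x).subtype (zp_p hx) zp_comm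
  obtain ⟨ξ, hξ⟩ := C.fo.exists_prim R.ppr
  have h1 : ξ ≠ 1 := fun e1 => R.rp.one_lt.ne (by rw [← hξ, e1, orderOf_one])
  have h2 : ξ ^ r = 1 := hξ ▸ pow_orderOf_eq_one ξ
  let x' : zpowers x := ⟨x, mem_zpowers x⟩
  obtain ⟨y, k4, k5⟩ := C.real k3 (f := fun ω => if ω x' = μ then ξ else 1) (t := r) (fun i => by
      have e1 : (w i ^ e) x' = μ ↔ w i x' = μ := by
        rw [MonoidHom.zpow_apply]
        refine ⟨fun e1 => ?_, fun e1 => e1 ▸ zpow_fix h3 (e1 ▸ hμ)⟩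
        have e2 : (w i x' / μ) ^ e = 1 := by rw [div_zpow, e1, zpow_fix h3 hμ, div_self']
        have e3 : (w i x' / μ) ^ 3 ^ (b + 1) = 1 := by
          rw [div_pow, ← map_pow, pow_succ, pow_mul, show x' ^ 3 ^ b = 1 from Subtype.ext hx, one_pow, map_one, mul_comm, pow_mul, hμ,
            one_pow, div_one]
        have e4 : (w i x' / μ) ^ Q = 1 := by
          rcases C.eq with e5 | e5 <;> rw [e5] at e2
          · rwa [zpow_natCast] at e2
          · rwa [_root_.zpow_neg, zpow_natCast, inv_eq_one] at e2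
        exact div_eq_one.1 ((pow_eq_one_iff_of_coprime (((Nat.Prime.coprime_iff_not_dvd R.lp).2 R.lQ).pow_left _)).1 ⟨e3, e4⟩)
      simp only [e1]
      split_ifs
      · exact (zpow_fix (C.r_dvd R h3) h2).symm
      · exact (_root_.one_zpow e).symm)
    fun ω => by
      split_ifs
      · exact h2
      · exact one_pow r
  refine ⟨y, ξ, k4, fun g hg => C.fo.comm_fn (f := fun ω => if ω x' = μ then ξ else 1) k1 k5 R.rc k4 (comm_zp hg), fun v => ?_⟩
  have hi : Function.Injective fun u : I → k => ((h'⁻¹ * h : GL I k) : Matrix I I k) *ᵥ u :=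
    mulVec_injective_of_isUnit (Units.isUnit _)
  have hd := k1 x'
  rw [coe_subtype] at hd
  rw [← hi.eq_iff, ← hi.eq_iff (a := mt ρ h y *ᵥ v)]
  simp only [← mt_change, mulVec_smul]
  rw [hd, k5, funext_iff, funext_iff]
  refine forall_congr' fun i => ?_
  rw [mulVec_diagonal, mulVec_diagonal, Pi.smul_apply, Pi.smul_apply, smul_eq_mul, smul_eq_mul, mul_eq_mul_right_iff,
    mul_eq_mul_right_iff, Units.val_inj, Units.val_inj]
  refine or_congr_left ?_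
  split_ifs with e1
  · exact iff_of_true e1 rfl
  · exact iff_of_false e1 h1.symm

end FA

/-- the action on a weight space -/
@[reducible] def act (hw : Dg ρ P.subtype h w) (ω : P →* kˣ) {D : Subgroup K} (hD : D ≤ centralizer (P : Set K)) : MulAction D (Sp w ω) where
  smul g v := ⟨mt ρ h g *ᵥ v, by
    have := hw.sp ⟨g, centralizer_le_normalizer _ (hD g.2)⟩ v.2
    rwa [ac_cen (hD g.2)] at this⟩
  one_smul v := Subtype.ext (show mt ρ h 1 *ᵥ v.1 = v.1 by rw [map_one, one_mulVec])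
  mul_smul a b v := Subtype.ext (show mt ρ h (a * b) *ᵥ v.1 = mt ρ h a *ᵥ (mt ρ h b *ᵥ v.1) by rw [map_mul, mulVec_mulVec])

theorem single_mem (j : I) : (Pi.single j 1 : I → k) ∈ Sp w (w j) := fun _ hi => Pi.single_eq_of_ne (fun e => hi (congrArg w e)) _

theorem pow_eig {g : K} {v : I → k} {μ : kˣ} (hμ : mt ρ h g *ᵥ v = (μ : k) • v) (s : ℕ) : mt ρ h (g ^ s) *ᵥ v = ((μ ^ s : kˣ) : k) • v := by
  induction s with
  | zero => simp
  | succ s ih => rw [pow_succ, map_mul, ← mulVec_mulVec, hμ, mulVec_smul, ih, smul_smul, pow_succ', Units.val_mul]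

theorem comm_of {D Γ : Type} [Group D] [Finite D] [Group Γ] (ψ : D →* Γ) (hp : IsPGroup 3 D)
    (h : ∀ a b, ψ a ≠ 1 → ψ a ^ 3 = 1 → ψ b ^ 3 = 1 → ∃ s : ℕ, ψ b = ψ (a ^ s)) (a b : D) : ψ (a * b) = ψ (b * a) := by
  have : Fact (Nat.Prime 3) := ⟨Nat.prime_three⟩
  have := Finite.of_surjective _ ψ.rangeRestrict_surjective
  have h3 : IsCyclic ψ.range := Solvable.UniqueOrderP.isCyclic_of_uniqueP (by decide) (hp.of_surjective _ ψ.rangeRestrict_surjective) (by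
    rintro ⟨_, a, rfl⟩ ⟨_, b, rfl⟩ k1 k2 k3
    obtain ⟨s, hs⟩ := h a b (fun e => k1 (Subtype.ext e)) (congrArg Subtype.val k2) (congrArg Subtype.val k3)
    exact mem_powers_iff_mem_zpowers.1 ⟨s, Subtype.ext ((hs.trans (map_pow ψ a s)).symm)⟩)
  rw [map_mul, map_mul]
  exact congrArg Subtype.val (h3.isMulCommutative.is_comm.comm (ψ.rangeRestrict a) (ψ.rangeRestrict b))

/-- a `3`-group in which the eigenvalues of order dividing three are scalars on the weight spaces is abelian -/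
theorem ab_of_sc (hρ : Function.Injective ρ) (hw : Dg ρ P.subtype h w) {D : Subgroup K} (hD : D ≤ centralizer (P : Set K))
    (hp : IsPGroup 3 D) (hs : ∀ x ∈ D, ∀ j, ∀ μ : kˣ, μ ^ 3 = 1 → ∀ v ∈ Sp w (w j), v ≠ 0 → mt ρ h x *ᵥ v = (μ : k) • v →
      ∀ u ∈ Sp w (w j), mt ρ h x *ᵥ u = (μ : k) • u) : BK.Ab D := fun x hx y hy => by
  have : Fact (Nat.Prime 3) := ⟨Nat.prime_three⟩
  refine hρ (mt_inj (h := h) (Matrix.ext fun i j => ?_))
  let _ := act hw (w j) hD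
  let ψ := MulAction.toPermHom D (Sp w (w j))
  have h1 : ∀ (a : D) (v : Sp w (w j)), (ψ a v : I → k) = mt ρ h a *ᵥ v := fun _ _ => rfl
  have h2 : ∀ a : D, ψ a ^ 3 = 1 → ∃ μ : kˣ, μ ^ 3 = 1 ∧ ∀ u ∈ Sp w (w j), mt ρ h a *ᵥ u = (μ : k) • u := fun a ha => by
    obtain ⟨v, hv, μ, k1, k2⟩ := exists_eig hw (hD a.2) j
    have k3 : v = ((μ ^ 3 : kˣ) : k) • v := by
      have k5 := h1 (a ^ 3) ⟨v, hv⟩
      rw [map_pow, ha] at k5
      exact k5.trans (pow_eig k2 3)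
    have k4 : μ ^ 3 = 1 := Units.ext (smul_left_injective k k1 (k3.symm.trans (one_smul k v).symm))
    exact ⟨μ, k4, hs a a.2 j μ k4 v hv k1 k2⟩
  have h3 := comm_of ψ hp (fun a b k1 k2 k3 => by
    obtain ⟨μ, k4, k5⟩ := h2 a k2
    obtain ⟨ν, k6, k7⟩ := h2 b k3
    have k8 : μ ≠ 1 := fun e => k1 (Equiv.ext fun v => Subtype.ext ((h1 a v).trans (by
      rw [k5 v v.2, e, Units.val_one, one_smul]; rfl)))
    obtain ⟨s, -, rfl⟩ := (IsPrimitiveRoot.iff_orderOf.2 (orderOf_eq_prime k4 k8)).eq_pow_of_mem_rootsOfUnity ((mem_rootsOfUnity _ _).2 k6)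
    exact ⟨s, Equiv.ext fun v => Subtype.ext ((h1 b v).trans ((k7 v v.2).trans ((h1 (a ^ s) v).trans (pow_eig (k5 v v.2) s)).symm))⟩)
    ⟨x, hx⟩ ⟨y, hy⟩
  have h4 := (h1 _ ⟨_, single_mem j⟩).symm.trans ((congrArg (fun σ : Equiv.Perm (Sp w (w j)) => (σ ⟨_, single_mem j⟩ : I → k)) h3).trans
    (h1 _ _))
  rw [mulVec_single_one, mulVec_single_one] at h4
  exact congrFun h4 i

/-- the action on the weights -/
@[reducible] def aw (hw : Dg ρ P.subtype h w) : MulAction (normalizer (P : Set K)) (Set.range w) where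
  smul g ω := ⟨ac g ω, by
    obtain ⟨j, hj⟩ := ω.2
    obtain ⟨i, hi⟩ := col_ne (ρ := ρ) (h := h) (g : K) j
    exact ⟨i, hj ▸ hw.ac g hi⟩⟩
  one_smul _ := Subtype.ext (ac_one _)
  mul_smul a b _ := Subtype.ext (ac_mul a b _)

/-- the number of the weights -/
theorem card_w {D : Subgroup K} {ζ : kˣ} (hζ : orderOf ζ = 3) (hf : ∀ f : (P →* kˣ) → kˣ, (∀ ω, f ω ^ 3 = 1) →
    ∃ t ∈ D, mt ρ h t = diagonal fun i => (f (w i) : k)) : 3 ^ Nat.card (Set.range w) ≤ Nat.card D := by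
  classical
  have h1 : ∀ a : Set.range w → Fin 3, ∃ t : D, ∀ i, mt ρ h t i i = (ζ ^ (a ⟨_, i, rfl⟩ : ℕ) : kˣ) := fun a => by
    obtain ⟨t, k1, k2⟩ := hf (fun ω => if e : ω ∈ Set.range w then ζ ^ (a ⟨ω, e⟩ : ℕ) else 1) fun ω => by
      split_ifs
      · rw [← pow_mul, mul_comm, pow_mul, orderOf_dvd_iff_pow_eq_one.1 hζ.dvd, one_pow]
      · exact one_pow 3
    exact ⟨⟨t, k1⟩, fun i => by rw [k2, diagonal_apply_eq, dif_pos ⟨i, rfl⟩]⟩
  choose t ht using h1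
  have h2 := Nat.card_le_card_of_injective t fun a b e => funext fun ⟨_, i, hi⟩ => by
    subst hi
    have k1 := (ht a i).symm.trans (e ▸ ht b i)
    exact Fin.ext (pow_injOn_Iio_orderOf ((a _).2.trans_eq hζ.symm) ((b _).2.trans_eq hζ.symm) (Units.ext k1))
  rwa [Nat.card_fun, Nat.card_fin] at h2

/-- a commutator which is not central -/
theorem not_cen (hw : Dg ρ P.subtype h w) {g : normalizer (P : Set K)} {j : I} (h1 : ac g (w j) ≠ w j) (h2 : ac g (ac g (w j)) ≠ w j)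
    {y : K} {f : (P →* kˣ) → kˣ} (hy : mt ρ h y = diagonal fun i => (f (w i) : k)) (h3 : f (w j) ≠ 1) (h4 : ∀ ω, ω ≠ w j → f ω = 1) :
    (g : K) * y * (g : K)⁻¹ * y⁻¹ ∉ center K := fun hz => by
  generalize hz' : (g : K) * y * (g : K)⁻¹ * y⁻¹ = z at hz
  have k0 : ∀ v, mt ρ h z *ᵥ (mt ρ h y *ᵥ (mt ρ h g *ᵥ v)) = mt ρ h g *ᵥ (mt ρ h y *ᵥ v) := fun v => by
    simp only [mulVec_mulVec, ← map_mul]
    rw [← hz']
    congr 2
    group
  have k1 : ∀ {ω v}, v ∈ Sp w ω → mt ρ h y *ᵥ v = (f ω : k) • v := fun hv => hy ▸ sp_dg hv fun ω => (f ω : k)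
  have v0 := single_mem (w := w) j
  have n0 : (Pi.single j 1 : I → k) ≠ 0 := fun e => by simpa using congrFun e j
  have v1 := hw.sp g v0
  have v2 := hw.sp g v1
  have k2 := k0 (Pi.single j 1)
  have k3 := k0 (mt ρ h g *ᵥ Pi.single j 1)
  rw [k1 v1, k1 v0, h4 _ h1, Units.val_one, one_smul, mulVec_smul] at k2
  rw [k1 v2, k1 v1, h4 _ h1, h4 _ h2, Units.val_one, one_smul, one_smul, mulVec_mulVec, ← map_mul, ← mem_center_iff.1 hz, map_mul,
    ← mulVec_mulVec, k2, mulVec_smul] at k3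
  exact h3 (Units.ext (smul_left_injective k (vec_ne _ (vec_ne _ n0)) (k3.trans (one_smul k _).symm)))

variable {m n N : ℕ} {M : Ideal AlgInt} {α : MulAut K}

/-- **the end game** -/
theorem main3 (C : FA Q e ρ) (R : Pr 2 Q 3 r 1 (Fintype.card I)) (h3 : (3 : ℤ) ∣ e - 1) (hM : IsPModular 3 M) (F : Fr 3 r m n N K α)
    {B : Set (IrrCharacter K)} {D Z : Subgroup K} (hB : IsPBlock M B) (hBs : StB α B) (hD : IsDefectGroup 3 M B D) (hDs : StS α D)
    (hZ : Z ≤ center K) (hZp : IsPGroup 3 Z) (hH : HZr 3 Z B) (h81 : Nat.card D ≤ 81) : BK.Ab D := by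
  classical
  have : Fact (Nat.Prime 3) := ⟨Nat.prime_three⟩
  have : Fact r.Prime := ⟨R.rp⟩
  obtain ⟨P, b, D', D₁, -, o⟩ := boxMain F hM B D ⊥ ⊥ hB hBs hD hDs bot_le IsPGroup.of_bot (fun g => by simp) bot_le
    (fun y _ _ => by simp [mem_centralizer_iff]) fun P' _ hP' _ => by
      obtain ⟨h, w, W⟩ := C.fo.exists_wt R hP' (F.bg.ab' hP')
      exact ⟨Zl 3 P', zl_p, le_cen_zl, fun y hy _ => cen_zl_le C.fo R W hy⟩
  obtain ⟨h, w, W, hf⟩ := C.exists_wt R h3 o.rp (F.bg.ab' o.rp)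
  have hZD : Zl 3 P ≤ D' := by
    rintro _ ⟨z, hz, rfl⟩
    exact cen_le_defect hM o.blk o.dfb zs_le zs_p hz
  have h1 : D' ≤ D₁ := o.inf ▸ inf_le_left
  have pg : IsPGroup 3 D₁ := Blocks.Basic.isPGroup_of_isDefectGroup o.dfB
  refine BK.ab_of_defect hM hB o.dfB ?_ hD
  obtain rfl : D' = D₁ := by
    by_contra e
    obtain ⟨u, k1, k2, k3, k4, v, k5, k6⟩ := o.nrm e
    have k7 : v ∈ centralizer (P : Set K) := cen_zl_le C.fo R W (centralizer_le hZD k5)
    obtain ⟨ζ, hζ⟩ := C.fo.exists_prim R.ppl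
    rw [pow_one] at hζ
    have c1 : Nat.card (Set.range w) ≤ 3 := by
      obtain ⟨x, hx⟩ := TID.Red.conj_defect hM hB hD o.dfB
      have c2 := (card_w hζ hf).trans (card_le_of_le hZD)
      have c3 : Nat.card D' < Nat.card D₁ := (card_le_of_le h1).lt_of_ne fun e1 => e (eq_of_le_of_card_ge h1 e1.ge)
      rw [← hx, card_map_of_injective (MulAut.conj x).injective] at c3
      exact Nat.lt_succ_iff.1 ((Nat.pow_lt_pow_iff_right (a := 3) (by decide)).1 (c2.trans_lt (c3.trans_le h81)))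
    have := Fintype.ofFinite (Set.range w)
    let _ := aw W.dg
    let φ := MulAction.toPermHom (normalizer (P : Set K)) (Set.range w)
    have c2 : ∀ g : normalizer (P : Set K), φ g = 1 ↔ (g : K) ∈ centralizer (P : Set K) := fun g =>
      ⟨fun e1 => mem_cen C.fo W R.rc fun i j e2 => (W.dg.ac g e2).trans
        (congrArg (fun σ : Equiv.Perm (Set.range w) => (σ ⟨_, j, rfl⟩ : P →* kˣ)) e1),
        fun e1 => Equiv.ext fun ω => Subtype.ext (ac_cen e1 _)⟩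
    let u' : normalizer (P : Set K) := ⟨u, o.nor k4⟩
    let g : normalizer (P : Set K) := u' * ⟨v, centralizer_le_normalizer _ k7⟩
    have c3 : φ g = φ u' := by rw [map_mul, (c2 ⟨v, _⟩).2 k7, mul_one]
    have c4 : φ g ^ 3 = 1 := by rw [c3, ← map_pow]; exact (c2 _).2 (o.le k3)
    let Δ := ((alternatingGroup (Set.range w)).comap φ).map (normalizer (P : Set K)).subtype
    have c5 : Δ ≤ normalizer (P : Set K) := map_subtype_le _
    have c6 := boxCor.ol (Δ := Δ) hM o hZ hH zl_p (fun z hz => let ⟨b, hb⟩ := hZp ⟨z, hz⟩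
        mem_zl W.ab (fun g _ => mem_center_iff.1 (hZ hz) g) (congrArg Subtype.val hb)) zl_le le_cen_zl nor_zl c5
      (by
        rw [← normal_subgroupOf_iff_le_normalizer c5, subgroupOf, comap_map_eq_self_of_injective (subtype_injective _)]
        infer_instance)
      (by
        rintro _ ⟨x, hx, rfl⟩ _ ⟨y, hy, rfl⟩
        refine le_cen_zl ((c2 (x * y * x⁻¹ * y⁻¹)).1 ?_)
        have := congrArg Subtype.val ((alternatingGroup.isMulCommutative_of_card_le_three c1).is_comm.comm ⟨φ x, hx⟩ ⟨φ y, hy⟩)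
        rw [map_mul, map_mul, map_mul, map_inv, map_inv, show φ x * φ y = φ y * φ x from this, mul_inv_cancel_right, mul_inv_cancel])
      g ⟨g, by
        have := congrArg Equiv.Perm.sign c4
        rw [map_pow, map_one, pow_succ, Int.units_sq, one_mul] at this
        exact this, rfl⟩ k6 ⟨1, le_cen_zl ((c2 (g ^ 3)).1 ((map_pow φ g 3).trans c4))⟩
    obtain ⟨⟨_, j, rfl⟩, hj⟩ : ∃ ω, φ g ω ≠ ω := by
      by_contra! e1
      exact k2 ((c2 u').1 (c3 ▸ Equiv.ext e1))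
    obtain ⟨y, e1, e2⟩ := hf (fun ω => if ω = w j then ζ else 1) fun ω => by
      split_ifs
      · rw [← hζ, pow_orderOf_eq_one]
      · exact one_pow 3
    refine not_cen (f := fun ω => if ω = w j then ζ else 1) W.dg (fun e3 => hj (Subtype.ext e3)) (fun e3 => hj ?_) e2
      (by rw [if_pos rfl]; exact fun e3 => by simp [e3] at hζ) (fun ω e3 => if_neg e3) (hZ (c6 y e1))
    have e4 := DFunLike.congr_fun c4 ⟨_, j, rfl⟩
    rwa [pow_succ', pow_two, Equiv.Perm.mul_apply, Equiv.Perm.mul_apply,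
      show φ g (φ g ⟨_, j, rfl⟩) = ⟨_, j, rfl⟩ from Subtype.ext e3] at e4
  refine ab_of_sc C.inj W.dg o.le pg fun x hx j μ hμ v hv k1 k2 u hu => ?_
  obtain ⟨b', hb'⟩ := pg ⟨x, hx⟩
  obtain ⟨y, ξ, k3, k4, k5⟩ := C.exists_y (h := h) R h3 (congrArg Subtype.val hb') hμ
  have k6 := o.mx (zpowers x) (zpowers_le.2 hx) y (fun z hz => k4 z (o.le hx z hz))
    (((Nat.dvd_prime_pow R.rp (m := 1)).1 (orderOf_dvd_of_pow_eq_one (by rw [pow_one, k3]))).imp fun _ e => e.2)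
    (by
      rintro _ ⟨j, rfl⟩
      exact k4 _ ((Commute.refl x).zpow_left j))
    fun c _ hc _ => (k4 c (hc _ (mem_zpowers _)).symm).symm
  have k7 := W.dg ⟨y, k6⟩
  rw [coe_subtype] at k7
  have k8 := (k5 v).1 k2
  rw [k7, sp_dg hv fun ω => (ω ⟨y, k6⟩ : k)] at k8
  rw [k5, k7, sp_dg hu fun ω => (ω ⟨y, k6⟩ : k), smul_left_injective k k1 k8]

end Cfsg.Agent.BH.RO.Gl
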